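import Cfsg.Agent.Lib.Helper44.SLW.X
import Cfsg.Agent.Lib.Helper4.CharBasic
import Cfsg.Agent.Lib.Helper20.CharOrth

/-!
# Eigencomponents of a permutation character under a commuting free abelian group
-/

set_option autoImplicit false
set_option linter.unusedSectionVars false

namespace Cfsg.Agent.Lib.Helper77.Weil

open Cfsg

section pm

variable {H Ω : Type*} [Group H] [Fintype Ω] [DecidableEq Ω] [MulAction H Ω]

theorem eig_sum_ite (f : Ω → ℂ) (w : Ω) : ∑ y, f y * (if w = y then 1 else 0) = f w := by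
  simp

/-- Permutation matrices of an action. -/
def pm : H →* Matrix Ω Ω ℂ where
  toFun g := Matrix.of fun x y => if g • y = x then 1 else 0
  map_one' := by
    ext x y
    simp [Matrix.one_apply, eq_comm]
  map_mul' g h := by
    ext x z
    simp only [Matrix.of_apply, Matrix.mul_apply, mul_smul]
    rw [eig_sum_ite (fun y => if g • y = x then (1 : ℂ) else 0) (h • z)]

theorem pm_apply (g : H) (x y : Ω) : (pm g : Matrix Ω Ω ℂ) x y = if g • y = x then 1 else 0 := rfl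

end pm

section dual

variable (C : Type*) [CommGroup C] [Fintype C] [DecidableEq C]

instance eig_enough : HasEnoughRootsOfUnity ℂ (Monoid.exponent C) := by
  have h0 : Monoid.exponent C ≠ 0 := Monoid.exponent_ne_zero_of_finite
  have : NeZero ((Monoid.exponent C : ℕ) : ℂ) := ⟨by exact_mod_cast h0⟩
  infer_instance

instance eig_finite : Finite (C →* ℂˣ) :=
  Nat.finite_of_card_ne_zero (by
    rw [CommGroup.card_monoidHom_of_hasEnoughRootsOfUnity C ℂ]
    exact Nat.card_pos.ne')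

noncomputable instance eig_fintype : Fintype (C →* ℂˣ) := Fintype.ofFinite _

theorem eig_sum_hom (s : C) :
    ∑ θ : C →* ℂˣ, ((θ s : ℂˣ) : ℂ) = if s = 1 then (Fintype.card C : ℂ) else 0 := by
  split_ifs with hs
  · subst hs
    simp only [map_one, Units.val_one, Finset.sum_const, Finset.card_univ, nsmul_eq_mul, mul_one]
    rw [← Nat.card_eq_fintype_card, CommGroup.card_monoidHom_of_hasEnoughRootsOfUnity C ℂ,
      Nat.card_eq_fintype_card]
  · obtain ⟨φ, hφ⟩ := CommGroup.exists_apply_ne_one_of_hasEnoughRootsOfUnity C ℂ hs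
    have h1 : ∑ θ : C →* ℂˣ, ((θ s : ℂˣ) : ℂ)
        = ((φ s : ℂˣ) : ℂ) * ∑ θ : C →* ℂˣ, ((θ s : ℂˣ) : ℂ) := by
      rw [Finset.mul_sum]
      refine (Fintype.sum_equiv (Equiv.mulLeft φ) _ _ fun θ => ?_).symm
      simp
    have h2 : (1 - ((φ s : ℂˣ) : ℂ)) * ∑ θ : C →* ℂˣ, ((θ s : ℂˣ) : ℂ) = 0 := by
      rw [sub_mul, one_mul, ← h1, sub_self]
    rcases mul_eq_zero.1 h2 with h3 | h3
    · exfalso
      apply hφ
      ext
      rw [Units.val_one]
      exact (sub_eq_zero.1 h3).symm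
    · exact h3

end dual

section eig

variable {G C Ω : Type*} [Group G] [Fintype G] [CommGroup C] [Fintype C] [DecidableEq C]
  [Fintype Ω] [DecidableEq Ω]
  [MulAction G Ω] [MulAction C Ω] [SMulCommClass G C Ω]

/-- The idempotent of the character `θ` of `C`. -/
noncomputable def eigE (Ω : Type*) [Fintype Ω] [DecidableEq Ω] [MulAction C Ω] (θ : C →* ℂˣ) :
    Matrix Ω Ω ℂ :=
  (Fintype.card C : ℂ)⁻¹ • ∑ s : C, ((θ s⁻¹ : ℂˣ) : ℂ) • (pm s : Matrix Ω Ω ℂ)

theorem eig_card_ne : (Fintype.card C : ℂ) ≠ 0 := by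
  exact_mod_cast Fintype.card_ne_zero

theorem eigE_mul_self (θ : C →* ℂˣ) : eigE Ω θ * eigE Ω θ = eigE Ω θ := by
  unfold eigE
  rw [Matrix.smul_mul, Matrix.mul_smul, Finset.sum_mul]
  have h1 : ∀ s : C, (((θ s⁻¹ : ℂˣ) : ℂ) • (pm s : Matrix Ω Ω ℂ))
      * ∑ t : C, ((θ t⁻¹ : ℂˣ) : ℂ) • (pm t : Matrix Ω Ω ℂ)
      = ∑ u : C, ((θ u⁻¹ : ℂˣ) : ℂ) • (pm u : Matrix Ω Ω ℂ) := by
    intro s
    rw [Finset.mul_sum]
    refine Fintype.sum_equiv (Equiv.mulLeft s) _ _ fun t => ?_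
    simp only [Equiv.coe_mulLeft, mul_inv, map_mul, Units.val_mul, Matrix.smul_mul, Matrix.mul_smul,
      smul_smul]
    rw [mul_comm]
  rw [Finset.sum_congr rfl fun s _ => h1 s, Finset.sum_const, Finset.card_univ, ← Nat.cast_smul_eq_nsmul ℂ,
    smul_smul, smul_smul, mul_assoc, inv_mul_cancel₀ (eig_card_ne (C := C)), mul_one]

theorem pm_comm (g : G) (s : C) :
    (pm g : Matrix Ω Ω ℂ) * pm s = pm s * pm g := by
  ext x z
  simp only [Matrix.mul_apply, pm_apply]
  rw [eig_sum_ite (fun y => if g • y = x then (1 : ℂ) else 0) (s • z),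
    eig_sum_ite (fun y => if s • y = x then (1 : ℂ) else 0) (g • z), smul_comm]

theorem pm_mul_eigE (g : G) (θ : C →* ℂˣ) :
    (pm g : Matrix Ω Ω ℂ) * eigE Ω θ = eigE Ω θ * pm g := by
  unfold eigE
  rw [Matrix.mul_smul, Matrix.smul_mul, Finset.mul_sum, Finset.sum_mul]
  congr 1
  refine Finset.sum_congr rfl fun s _ => ?_
  rw [Matrix.mul_smul, Matrix.smul_mul, pm_comm]

theorem trace_pm_mul (g : G) (s : C) :
    ((pm g : Matrix Ω Ω ℂ) * pm s).trace = ∑ x : Ω, if g • s • x = x then (1 : ℂ) else 0 := by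
  simp only [Matrix.trace, Matrix.diag_apply, Matrix.mul_apply, pm_apply]
  refine Finset.sum_congr rfl fun x _ => ?_
  rw [eig_sum_ite (fun y => if g • y = x then (1 : ℂ) else 0) (s • x)]

/-- The eigencomponent of the permutation character. -/
noncomputable def eigChar (Ω : Type*) [Fintype Ω] [DecidableEq Ω] [MulAction G Ω] [MulAction C Ω]
    (θ : C →* ℂˣ) : G → ℂ :=
  fun g => ((pm g : Matrix Ω Ω ℂ) * eigE Ω θ).trace

theorem isCharacter_eigChar (θ : C →* ℂˣ) : IsCharacter G (eigChar (G := G) Ω θ) :=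
  Cfsg.Agent.Lib.Helper44.SLW.isCharacter_trace_mul_idem pm (eigE Ω θ) (eigE_mul_self θ)
    (fun g => pm_mul_eigE g θ)

theorem eigChar_apply (θ : C →* ℂˣ) (g : G) :
    eigChar (G := G) Ω θ g = (Fintype.card C : ℂ)⁻¹ *
      ∑ s : C, ((θ s⁻¹ : ℂˣ) : ℂ) * ∑ x : Ω, if g • s • x = x then (1 : ℂ) else 0 := by
  unfold eigChar eigE
  rw [Matrix.mul_smul, Matrix.trace_smul, Finset.mul_sum, Matrix.trace_sum, smul_eq_mul]
  congr 1
  refine Finset.sum_congr rfl fun s _ => ?_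
  rw [Matrix.mul_smul, Matrix.trace_smul, trace_pm_mul, smul_eq_mul]

theorem sum_eigChar (g : G) :
    ∑ θ : C →* ℂˣ, eigChar (G := G) Ω θ g = ∑ x : Ω, if g • x = x then (1 : ℂ) else 0 := by
  simp only [eigChar_apply]
  rw [← Finset.mul_sum, Finset.sum_comm]
  simp only [← Finset.sum_mul, eig_sum_hom]
  rw [Finset.sum_eq_single (1 : C)]
  · simp only [inv_one, if_true, one_smul]
    rw [← mul_assoc, inv_mul_cancel₀ (eig_card_ne (C := C)), one_mul]
  · intro s _ hs
    rw [if_neg (by simpa using hs), zero_mul]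
  · intro h'
    exact absurd (Finset.mem_univ _) h'

theorem eigChar_of_free (θ : C →* ℂˣ) (g : G) (hg : ∀ s : C, s ≠ 1 → ∀ x : Ω, g • s • x ≠ x) :
    eigChar (G := G) Ω θ g
      = (Fintype.card C : ℂ)⁻¹ * ∑ x : Ω, if g • x = x then (1 : ℂ) else 0 := by
  rw [eigChar_apply]
  congr 1
  rw [Finset.sum_eq_single (1 : C)]
  · simp
  · intro s _ hs
    rw [Finset.sum_eq_zero fun x _ => if_neg (hg s hs x), mul_zero]
  · intro h'
    exact absurd (Finset.mem_univ _) h'

/-- Abstract form used for the degree bound. -/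
theorem exists_eigen_char {σ : G → ℂ}
    (hσ : classInner (fun g : G => ∑ x : Ω, if g • x = x then (1 : ℂ) else 0) σ ≠ 0) :
    ∃ P1 P2 : G → ℂ, IsCharacter G P1 ∧ IsCharacter G P2 ∧
      (fun g : G => ∑ x : Ω, if g • x = x then (1 : ℂ) else 0) = P1 + P2 ∧ classInner P1 σ ≠ 0 ∧
      ∀ g : G, (∀ s : C, s ≠ 1 → ∀ x : Ω, g • s • x ≠ x) →
        P1 g = (Fintype.card C : ℂ)⁻¹ * ∑ x : Ω, if g • x = x then (1 : ℂ) else 0 := by
  classical
  have hsum : (fun g : G => ∑ x : Ω, if g • x = x then (1 : ℂ) else 0)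
      = ∑ θ : C →* ℂˣ, eigChar (G := G) Ω θ := by
    funext g
    rw [Finset.sum_apply, sum_eigChar]
  have h1 : ∃ θ : C →* ℂˣ, classInner (eigChar (G := G) Ω θ) σ ≠ 0 := by
    by_contra hcon
    push Not at hcon
    apply hσ
    rw [hsum, Helper20.classInner_sum_left]
    exact Finset.sum_eq_zero fun θ _ => hcon θ
  obtain ⟨θ, hθ⟩ := h1
  refine ⟨eigChar (G := G) Ω θ, ∑ θ' ∈ Finset.univ.erase θ, eigChar (G := G) Ω θ',
    isCharacter_eigChar θ, Helper4.isCharacter_sum _ _ fun θ' _ => isCharacter_eigChar θ', ?_, hθ,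
    fun g hg => eigChar_of_free θ g hg⟩
  rw [hsum, Finset.add_sum_erase _ _ (Finset.mem_univ θ)]

end eig

end Cfsg.Agent.Lib.Helper77.Weil
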