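import Cfsg.Agent.Lib.Helper77.Weil.Defs

/-!
# Ladder WEIL, rung TRANS: transitivity of `SL_n(F)` on independent pairs
-/

set_option autoImplicit false

namespace Cfsg.Agent.Lib.Helper77.Weil

variable {n : ℕ} {F : Type*} [Field F]

theorem trans_exists_equiv {I J : Type*} [DecidableEq J] (e0 : I ≃ J) (i j : I) (hij : i ≠ j)
    (a b : J) (hab : a ≠ b) : ∃ e : I ≃ J, e i = a ∧ e j = b := by
  let e1 : I ≃ J := e0.trans (Equiv.swap (e0 i) a)
  have h1 : e1 i = a := by simp [e1]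
  have h1j : e1 j ≠ a := by
    rw [← h1]; exact fun h => hij (e1.injective h).symm
  refine ⟨e1.trans (Equiv.swap (e1 j) b), ?_, by simp⟩
  rw [Equiv.trans_apply, h1, Equiv.swap_apply_of_ne_of_ne h1j.symm hab]

/-- An independent pair extends to a basis indexed by `Fin n`. -/
theorem trans_exists_basis (hn : 3 ≤ n) (x y : Fin n → F) (hx : x ≠ 0) (hy : ∀ c : F, y ≠ c • x) :
    ∃ b : Module.Basis (Fin n) F (Fin n → F), b ⟨0, by omega⟩ = x ∧ b ⟨1, by omega⟩ = y := by
  classical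
  have hli : LinearIndependent F ![x, y] := by
    rw [LinearIndependent.pair_iff]
    intro s t hst
    by_cases ht : t = 0
    · subst ht
      simp only [zero_smul, add_zero] at hst
      exact ⟨(smul_eq_zero.1 hst).resolve_right hx, rfl⟩
    · exfalso
      apply hy (-(t⁻¹ * s))
      have h1 : t • y = -(s • x) := by
        rw [eq_neg_iff_add_eq_zero, add_comm]; exact hst
      calc y = t⁻¹ • (t • y) := by rw [smul_smul, inv_mul_cancel₀ ht, one_smul]
        _ = (-(t⁻¹ * s)) • x := by rw [h1, smul_neg, smul_smul, neg_smul]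
  have hs := hli.linearIndepOn_id
  let b0 := Module.Basis.extend hs
  have hsub := Module.Basis.subset_extend hs
  have hxm : x ∈ Set.range ![x, y] := ⟨0, rfl⟩
  have hym : y ∈ Set.range ![x, y] := ⟨1, rfl⟩
  have hfin : Finite (hs.extend (Set.subset_univ _)) := Module.Finite.finite_basis b0
  have : Fintype (hs.extend (Set.subset_univ _)) := Fintype.ofFinite _
  have hcard : Fintype.card (Fin n) = Fintype.card (hs.extend (Set.subset_univ _)) := by
    rw [← Module.finrank_eq_card_basis b0, Module.finrank_fin_fun, Fintype.card_fin]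
  have hxy : x ≠ y := fun h => hy 1 (by rw [one_smul, h])
  obtain ⟨e, he0, he1⟩ := trans_exists_equiv (Fintype.equivOfCardEq hcard)
    (⟨0, by omega⟩ : Fin n) ⟨1, by omega⟩ (by simp [Fin.ext_iff])
    (⟨x, hsub hxm⟩ : hs.extend (Set.subset_univ _)) ⟨y, hsub hym⟩
    (fun h => hxy (congrArg Subtype.val h))
  refine ⟨b0.reindex e.symm, ?_, ?_⟩
  · rw [Module.Basis.reindex_apply, Equiv.symm_symm, he0]
    exact Module.Basis.extend_apply_self hs _
  · rw [Module.Basis.reindex_apply, Equiv.symm_symm, he1]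
    exact Module.Basis.extend_apply_self hs _

/-- TRANS. -/
theorem exists_sl_pair (hn : 3 ≤ n) (x y : Fin n → F) (hx : x ≠ 0) (hy : ∀ c : F, y ≠ c • x) :
    ∃ B : Matrix.SpecialLinearGroup (Fin n) F,
      (B : Matrix (Fin n) (Fin n) F).mulVec (Pi.single ⟨0, by omega⟩ 1) = x ∧
      (B : Matrix (Fin n) (Fin n) F).mulVec (Pi.single ⟨1, by omega⟩ 1) = y := by
  classical
  obtain ⟨b, hb0, hb1⟩ := trans_exists_basis hn x y hx hy
  let M : Matrix (Fin n) (Fin n) F := (Pi.basisFun F (Fin n)).toMatrix b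
  have hM : ∀ i j, M i j = b j i := fun i j => by
    simp [M, Module.Basis.toMatrix_apply]
  have hd : M.det ≠ 0 := by
    have h := (Pi.basisFun F (Fin n)).isUnit_det b
    rw [Module.Basis.det_apply] at h
    exact h.ne_zero
  let M' : Matrix (Fin n) (Fin n) F :=
    M.updateCol ⟨2, by omega⟩ (M.det⁻¹ • fun i => M i ⟨2, by omega⟩)
  have hd' : M'.det = 1 := by
    show (M.updateCol ⟨2, by omega⟩ (M.det⁻¹ • fun i => M i ⟨2, by omega⟩)).det = 1
    rw [Matrix.det_updateCol_smul, Matrix.updateCol_eq_self, inv_mul_cancel₀ hd]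
  refine ⟨⟨M', hd'⟩, ?_, ?_⟩
  · show M'.mulVec _ = x
    rw [Matrix.mulVec_single_one]
    funext i
    show (M.updateCol ⟨2, by omega⟩ (M.det⁻¹ • fun i => M i ⟨2, by omega⟩)) i ⟨0, by omega⟩ = x i
    rw [Matrix.updateCol_ne (by simp [Fin.ext_iff]), hM, hb0]
  · show M'.mulVec _ = y
    rw [Matrix.mulVec_single_one]
    funext i
    show (M.updateCol ⟨2, by omega⟩ (M.det⁻¹ • fun i => M i ⟨2, by omega⟩)) i ⟨1, by omega⟩ = y i
    rw [Matrix.updateCol_ne (by simp [Fin.ext_iff]), hM, hb1]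

theorem trans_unit_to_field {x y : NZ n F} (h : ∀ c : Fˣ, y ≠ c • x) (c : F) : y.1 ≠ c • x.1 := by
  intro hc
  by_cases h0 : c = 0
  · subst h0
    exact y.2 (by rw [hc, zero_smul])
  · exact h (Units.mk0 c h0) (NZ.ext hc)

theorem trans2 (hn : 3 ≤ n) (x y x' y' : NZ n F) (h : ∀ c : Fˣ, y ≠ c • x)
    (h' : ∀ c : Fˣ, y' ≠ c • x') :
    ∃ g : Matrix.SpecialLinearGroup (Fin n) F, g • x = x' ∧ g • y = y' := by
  obtain ⟨B, hB0, hB1⟩ := exists_sl_pair hn x.1 y.1 x.2 (trans_unit_to_field h)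
  obtain ⟨B', hB0', hB1'⟩ := exists_sl_pair hn x'.1 y'.1 x'.2 (trans_unit_to_field h')
  have key : ∀ (v w : Fin n → F) (e : Fin n → F),
      (B : Matrix (Fin n) (Fin n) F).mulVec e = v → (B' : Matrix (Fin n) (Fin n) F).mulVec e = w →
      ((B' * B⁻¹ : Matrix.SpecialLinearGroup (Fin n) F) : Matrix (Fin n) (Fin n) F).mulVec v = w := by
    intro v w e hv hw
    rw [← hv, Matrix.mulVec_mulVec, ← Matrix.SpecialLinearGroup.coe_mul, inv_mul_cancel_right, hw]
  exact ⟨B' * B⁻¹, NZ.ext (key _ _ _ hB0 hB0'), NZ.ext (key _ _ _ hB1 hB1')⟩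

theorem exists_indep (hn : 3 ≤ n) (x : NZ n F) : ∃ y : NZ n F, ∀ c : Fˣ, y ≠ c • x := by
  classical
  have hne : ∀ i : Fin n, (Pi.single i 1 : Fin n → F) ≠ 0 := by
    intro i h
    have := congrFun h i
    simp at this
  by_contra hcon
  push Not at hcon
  obtain ⟨c0, h0⟩ := hcon ⟨Pi.single ⟨0, by omega⟩ 1, hne _⟩
  obtain ⟨c1, h1⟩ := hcon ⟨Pi.single ⟨1, by omega⟩ 1, hne _⟩
  have h0' : (Pi.single ⟨0, by omega⟩ 1 : Fin n → F) = (c0 : F) • x.1 := congrArg Subtype.val h0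
  have h1' : (Pi.single ⟨1, by omega⟩ 1 : Fin n → F) = (c1 : F) • x.1 := congrArg Subtype.val h1
  have a0 := congrFun h0' ⟨1, by omega⟩
  have a1 := congrFun h1' ⟨1, by omega⟩
  simp [Fin.ext_iff] at a0 a1
  rw [a0] at a1
  simp at a1

theorem trans1 (hn : 3 ≤ n) (x x' : NZ n F) :
    ∃ g : Matrix.SpecialLinearGroup (Fin n) F, g • x = x' := by
  obtain ⟨y, hy⟩ := exists_indep hn x
  obtain ⟨y', hy'⟩ := exists_indep hn x'
  obtain ⟨g, hg, -⟩ := trans2 hn x y x' y' hy hy'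
  exact ⟨g, hg⟩

end Cfsg.Agent.Lib.Helper77.Weil
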