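import Mathlib

/-!
# Ladder WEIL, rung COMM: the commutant is commutative
-/

set_option autoImplicit false

namespace Cfsg.Agent.Lib.Helper77.Weil

open Representation

/-- The all-ones operator. -/
noncomputable def commJ (Ω : Type*) [Fintype Ω] : MonoidAlgebra ℂ Ω →ₗ[ℂ] MonoidAlgebra ℂ Ω :=
  (MonoidAlgebra.basis Ω ℂ).constr ℂ (fun _ => ∑ x, MonoidAlgebra.single x 1)

theorem commJ_single {Ω : Type*} [Fintype Ω] (y : Ω) :
    commJ Ω (MonoidAlgebra.single y 1) = ∑ x, MonoidAlgebra.single x 1 := by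
  rw [commJ, ← MonoidAlgebra.basis_apply, Module.Basis.constr_basis]

variable {G C Ω : Type*} [Group G] [Fintype G] [CommGroup C] [Fintype C] [Fintype Ω]
  [MulAction G Ω] [MulAction C Ω] [SMulCommClass G C Ω]

theorem comm_ext {S T : MonoidAlgebra ℂ Ω →ₗ[ℂ] MonoidAlgebra ℂ Ω}
    (h : ∀ y, S (MonoidAlgebra.single y 1) = T (MonoidAlgebra.single y 1)) : S = T := by
  refine (MonoidAlgebra.basis Ω ℂ).ext fun y => ?_
  rw [MonoidAlgebra.basis_apply]
  exact h y

theorem comm_A_J (c : C) : ofMulAction ℂ C Ω c ∘ₗ commJ Ω = commJ Ω := by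
  refine comm_ext fun y => ?_
  rw [LinearMap.comp_apply, commJ_single, map_sum]
  simp only [ofMulAction_single]
  exact Equiv.sum_comp (MulAction.toPerm c) (fun x : Ω => (MonoidAlgebra.single x 1 : MonoidAlgebra ℂ Ω))

theorem comm_J_A (c : C) : commJ Ω ∘ₗ ofMulAction ℂ C Ω c = commJ Ω := by
  refine comm_ext fun y => ?_
  rw [LinearMap.comp_apply, ofMulAction_single, commJ_single, commJ_single]

theorem comm_decomp
    (hfree : ∀ (c : C) (x : Ω), c • x = x → c = 1)
    (h1 : ∀ x y : Ω, ∃ g : G, g • x = y)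
    (h2 : ∀ x y x' y' : Ω, (∀ c : C, y ≠ c • x) → (∀ c : C, y' ≠ c • x') →
      ∃ g : G, g • x = x' ∧ g • y = y')
    (a b : Ω) (hab : ∀ c : C, b ≠ c • a)
    (S : MonoidAlgebra ℂ Ω →ₗ[ℂ] MonoidAlgebra ℂ Ω)
    (hS : ∀ g : G, S ∘ₗ ofMulAction ℂ G Ω g = ofMulAction ℂ G Ω g ∘ₗ S) :
    ∃ (s : C → ℂ) (t : ℂ), S = ∑ c, s c • ofMulAction ℂ C Ω c + t • commJ Ω := by
  classical
  let k : Ω → Ω → ℂ := fun x y => (S (MonoidAlgebra.single y 1)).coeff x
  have hk : ∀ (g : G) (x y : Ω), k (g • x) (g • y) = k x y := by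
    intro g x y
    have h := congrArg (fun f => f (MonoidAlgebra.single y 1)) (hS g)
    simp only [LinearMap.comp_apply, ofMulAction_single] at h
    show (S (MonoidAlgebra.single (g • y) 1)).coeff (g • x) = _
    rw [h, coeff_ofMulAction, inv_smul_smul]
  refine ⟨fun c => k (c • a) a - k b a, k b a, comm_ext fun y => ?_⟩
  apply MonoidAlgebra.ext
  ext x
  simp only [LinearMap.add_apply, LinearMap.sum_apply, LinearMap.smul_apply, ofMulAction_single,
    commJ_single, MonoidAlgebra.coeff_add, MonoidAlgebra.coeff_sum, MonoidAlgebra.coeff_smul,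
    Finsupp.add_apply, Finsupp.finset_sum_apply, Finsupp.smul_apply, MonoidAlgebra.coeff_single,
    Finsupp.single_apply, smul_eq_mul, mul_ite, mul_one, mul_zero]
  show k x y = _
  rw [Finset.sum_ite_eq' Finset.univ x (fun _ => (1 : ℂ))]
  simp only [Finset.mem_univ, if_true, mul_one]
  by_cases hx : ∃ c : C, x = c • y
  · obtain ⟨c0, rfl⟩ := hx
    have hu : ∀ c : C, (c • y = c0 • y) ↔ c = c0 := by
      intro c
      constructor
      · intro h
        have : (c0⁻¹ * c) • y = y := by rw [mul_smul, h, inv_smul_smul]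
        have h3 := hfree _ _ this
        rw [inv_mul_eq_one] at h3
        exact h3.symm
      · rintro rfl; rfl
    simp only [hu]
    rw [Finset.sum_ite_eq' Finset.univ c0]
    simp only [Finset.mem_univ, if_true, sub_add_cancel]
    obtain ⟨g, hg⟩ := h1 a y
    rw [← hg, ← smul_comm, hk]
  · push Not at hx
    have h0 : ∀ c : C, ¬ (c • y = x) := fun c h => hx c h.symm
    simp only [h0, if_false, Finset.sum_const_zero, zero_add]
    obtain ⟨g, hg1, hg2⟩ := h2 a b y x hab hx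
    rw [← hg1, ← hg2, hk]

/-- COMM. -/
theorem comm_of_scalars
    (hfree : ∀ (c : C) (x : Ω), c • x = x → c = 1)
    (h1 : ∀ x y : Ω, ∃ g : G, g • x = y)
    (h2 : ∀ x y x' y' : Ω, (∀ c : C, y ≠ c • x) → (∀ c : C, y' ≠ c • x') →
      ∃ g : G, g • x = x' ∧ g • y = y')
    (a b : Ω) (hab : ∀ c : C, b ≠ c • a)
    (S T : MonoidAlgebra ℂ Ω →ₗ[ℂ] MonoidAlgebra ℂ Ω)
    (hS : ∀ g : G, S ∘ₗ Representation.ofMulAction ℂ G Ω g
      = Representation.ofMulAction ℂ G Ω g ∘ₗ S)
    (hT : ∀ g : G, T ∘ₗ Representation.ofMulAction ℂ G Ω g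
      = Representation.ofMulAction ℂ G Ω g ∘ₗ T) :
    S ∘ₗ T = T ∘ₗ S := by
  obtain ⟨s, t, rfl⟩ := comm_decomp hfree h1 h2 a b hab S hS
  obtain ⟨s', t', rfl⟩ := comm_decomp hfree h1 h2 a b hab T hT
  have hAA : ∀ c d : C, Commute (ofMulAction ℂ C Ω c) (ofMulAction ℂ C Ω d) := by
    intro c d
    show ofMulAction ℂ C Ω c * ofMulAction ℂ C Ω d = ofMulAction ℂ C Ω d * ofMulAction ℂ C Ω c
    rw [← map_mul, ← map_mul, mul_comm]
  have hAJ : ∀ c : C, Commute (ofMulAction ℂ C Ω c) (commJ Ω) := by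
    intro c
    show ofMulAction ℂ C Ω c ∘ₗ commJ Ω = commJ Ω ∘ₗ ofMulAction ℂ C Ω c
    rw [comm_A_J, comm_J_A]
  have key : Commute (∑ c, s c • ofMulAction ℂ C Ω c + t • commJ Ω)
      (∑ c, s' c • ofMulAction ℂ C Ω c + t' • commJ Ω) := by
    apply Commute.add_left
    · apply Commute.add_right
      · exact Commute.sum_left _ _ _ fun c _ => Commute.sum_right _ _ _ fun d _ =>
          ((hAA c d).smul_left _).smul_right _
      · exact Commute.sum_left _ _ _ fun c _ => ((hAJ c).smul_left _).smul_right _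
    · apply Commute.add_right
      · exact Commute.sum_right _ _ _ fun d _ => ((hAJ d).symm.smul_left _).smul_right _
      · exact ((Commute.refl _).smul_left _).smul_right _
  exact key

end Cfsg.Agent.Lib.Helper77.Weil
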