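import Mathlib
import Cfsg.Prelude.Def_Characters

/-!
# Ladder WEIL (S2336): the action of `SL_n(F)` and of the scalars on the non-zero vectors
-/

set_option autoImplicit false

namespace Cfsg.Agent.Lib.Helper77.Weil

/-- The non-zero vectors of `F^n`. -/
def NZ (n : ℕ) (F : Type*) [Field F] : Type _ := {v : Fin n → F // v ≠ 0}

variable {n : ℕ} {F : Type*} [Field F]

theorem NZ.ext {x y : NZ n F} (h : x.1 = y.1) : x = y := Subtype.ext h

noncomputable instance [Fintype F] : Fintype (NZ n F) := by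
  classical
  exact inferInstanceAs (Fintype {v : Fin n → F // v ≠ 0})

theorem mulVec_ne_zero (g : Matrix.SpecialLinearGroup (Fin n) F) {v : Fin n → F} (hv : v ≠ 0) :
    (g : Matrix (Fin n) (Fin n) F).mulVec v ≠ 0 := by
  intro h
  apply hv
  have h1 : ((g⁻¹ * g : Matrix.SpecialLinearGroup (Fin n) F) : Matrix (Fin n) (Fin n) F).mulVec v
      = 0 := by
    rw [Matrix.SpecialLinearGroup.coe_mul, ← Matrix.mulVec_mulVec, h, Matrix.mulVec_zero]
  simpa using h1

instance slAct : MulAction (Matrix.SpecialLinearGroup (Fin n) F) (NZ n F) where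
  smul g v := ⟨(g : Matrix (Fin n) (Fin n) F).mulVec v.1, mulVec_ne_zero g v.2⟩
  one_smul v := NZ.ext (by
    show ((1 : Matrix.SpecialLinearGroup (Fin n) F) : Matrix (Fin n) (Fin n) F).mulVec v.1 = v.1
    simp)
  mul_smul g h v := NZ.ext (by
    show ((g * h : Matrix.SpecialLinearGroup (Fin n) F) : Matrix (Fin n) (Fin n) F).mulVec v.1
      = (g : Matrix (Fin n) (Fin n) F).mulVec ((h : Matrix (Fin n) (Fin n) F).mulVec v.1)
    rw [Matrix.SpecialLinearGroup.coe_mul, Matrix.mulVec_mulVec])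

@[simp] theorem sl_smul_val (g : Matrix.SpecialLinearGroup (Fin n) F) (v : NZ n F) :
    (g • v).1 = (g : Matrix (Fin n) (Fin n) F).mulVec v.1 := rfl

instance scAct : MulAction Fˣ (NZ n F) where
  smul c v := ⟨(c : F) • v.1, smul_ne_zero c.ne_zero v.2⟩
  one_smul v := NZ.ext (by
    show ((1 : Fˣ) : F) • v.1 = v.1
    simp)
  mul_smul c d v := NZ.ext (by
    show ((c * d : Fˣ) : F) • v.1 = (c : F) • ((d : F) • v.1)
    rw [Units.val_mul, mul_smul])

@[simp] theorem sc_smul_val (c : Fˣ) (v : NZ n F) : (c • v).1 = (c : F) • v.1 := rfl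

instance : SMulCommClass (Matrix.SpecialLinearGroup (Fin n) F) Fˣ (NZ n F) where
  smul_comm g c v := NZ.ext (by
    simp only [sl_smul_val, sc_smul_val]
    rw [Matrix.mulVec_smul])

theorem sc_free (c : Fˣ) (x : NZ n F) (h : c • x = x) : c = 1 := by
  have h1 : (c : F) • x.1 = x.1 := congrArg Subtype.val h
  have h2 : ((c : F) - 1) • x.1 = 0 := by rw [sub_smul, h1, one_smul, sub_self]
  rcases smul_eq_zero.1 h2 with h3 | h3
  · exact Units.ext (by simpa using sub_eq_zero.1 h3)
  · exact absurd h3 x.2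

/-- The fixed points of `g` in `NZ` are the vectors counted in S2336. -/
theorem card_fixedBy (g : Matrix.SpecialLinearGroup (Fin n) F) :
    Nat.card (MulAction.fixedBy (NZ n F) g)
      = Nat.card {v : Fin n → F // v ≠ 0 ∧ (g : Matrix (Fin n) (Fin n) F).mulVec v = v} := by
  refine Nat.card_congr
    { toFun := fun x => ⟨x.1.1, x.1.2, congrArg Subtype.val x.2⟩
      invFun := fun v => ⟨⟨v.1, v.2.1⟩, NZ.ext v.2.2⟩
      left_inv := fun _ => rfl
      right_inv := fun _ => rfl }

end Cfsg.Agent.Lib.Helper77.Weil
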