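import Cfsg.Agent.Lib.Helper96.PermMult

/-!
# Ladder WEIL, rung FIN
-/

set_option autoImplicit false

namespace Cfsg.Agent.Lib.Helper77.Weil

open Cfsg

variable {G Ω : Type*} [Group G] [Fintype G] [Fintype Ω] [MulAction G Ω]

/-- FIN. -/
theorem decomp_of_multFree [MulAction.IsPretransitive G Ω] (a : Ω) (r : ℕ)
    (hr : Nat.card (MulAction.orbitRel.Quotient (MulAction.stabilizer G a) Ω) = r + 1)
    (hmf : ∀ χ : G → ℂ, IsIrrCharacter G χ →
      classInner (fun g : G => (Nat.card (MulAction.fixedBy Ω g) : ℂ)) χ = 0 ∨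
      classInner (fun g : G => (Nat.card (MulAction.fixedBy Ω g) : ℂ)) χ = 1) :
    ∃ χ : Fin r → (G → ℂ), (∀ i, IsIrrCharacter G (χ i)) ∧ Function.Injective χ ∧
      ∀ g : G, (Nat.card (MulAction.fixedBy Ω g) : ℂ) = 1 + ∑ i, χ i g := by
  classical
  have : Finite (IrrCharacter G) := Helper20.finite_irrCharacter
  have : Fintype (IrrCharacter G) := Fintype.ofFinite _
  have : Nonempty Ω := ⟨a⟩
  obtain ⟨m, d, hm, -, -, hrank, -⟩ := Helper96.perm_mult_data (G := G) a
  have hm01 : ∀ χ, m χ = 0 ∨ m χ = 1 := by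
    intro χ
    rcases hmf χ.1 χ.2 with h | h
    · left
      rw [hm] at h
      exact_mod_cast h
    · right
      rw [hm] at h
      exact_mod_cast h
  let t : IrrCharacter G := ⟨fun _ => 1, Helper4.isIrrCharacter_one⟩
  have hmt : m t = 1 := by
    have h := Helper96.classInner_perm_one (G := G) (Ω := Ω)
    have h2 := hm t
    rw [show ((t : IrrCharacter G) : G → ℂ) = fun _ => 1 from rfl, h] at h2
    exact_mod_cast h2.symm
  let S : Finset (IrrCharacter G) := Finset.univ.filter (fun χ => m χ = 1 ∧ χ ≠ t)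
  have hsum : ∀ f : IrrCharacter G → ℂ,
      ∑ χ, (m χ : ℂ) * f χ = f t + ∑ χ ∈ S, f χ := by
    intro f
    have h1 : ∀ χ, (m χ : ℂ) * f χ
        = (if χ = t then f t else 0) + (if m χ = 1 ∧ χ ≠ t then f χ else 0) := by
      intro χ
      by_cases hχ : χ = t
      · subst hχ
        simp [hmt]
      · rcases hm01 χ with h | h
        · simp [h, hχ]
        · simp [h, hχ]
    rw [Finset.sum_congr rfl fun χ _ => h1 χ, Finset.sum_add_distrib, Finset.sum_filter]
    simp
  have hcard : S.card = r := by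
    have h1 := hsum (fun _ => 1)
    simp only [mul_one, Finset.sum_const, nsmul_eq_mul] at h1
    have h2 : ∑ χ, m χ ^ 2 = ∑ χ, m χ := by
      refine Finset.sum_congr rfl fun χ _ => ?_
      rcases hm01 χ with h | h <;> simp [h]
    have h3 : ((∑ χ, m χ : ℕ) : ℂ) = ((1 + S.card : ℕ) : ℂ) := by
      push_cast
      exact h1
    have h4 : ∑ χ, m χ = 1 + S.card := by exact_mod_cast h3
    omega
  let e : Fin r ≃ S := (S.equivFinOfCardEq hcard).symm
  refine ⟨fun i => ((e i : IrrCharacter G) : G → ℂ), fun i => (e i).1.2, ?_, fun g => ?_⟩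
  · intro i j hij
    exact e.injective (Subtype.ext (Subtype.ext hij))
  · have hF := Helper20.eq_sum_classInner_smul (G := G) (Helper96.isClassFunction_perm (Ω := Ω))
    have h1 := congrFun hF g
    simp only [hm, Finset.sum_apply, Pi.smul_apply, smul_eq_mul] at h1
    rw [h1, hsum (fun χ => (χ : G → ℂ) g)]
    congr 1
    rw [← Finset.sum_coe_sort S (fun χ => (χ : G → ℂ) g)]
    exact (Equiv.sum_comp e (fun χ : S => ((χ : IrrCharacter G) : G → ℂ) g)).symm

end Cfsg.Agent.Lib.Helper77.Weil
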