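import Mathlib

/-!
# Ladder WEIL, rung RANK
-/

set_option autoImplicit false

namespace Cfsg.Agent.Lib.Helper77.Weil

variable {G C Ω : Type*} [Group G] [Fintype G] [CommGroup C] [Fintype C] [Fintype Ω]
  [MulAction G Ω] [MulAction C Ω] [SMulCommClass G C Ω]

/-- RANK. -/
theorem rank_of_scalars
    (hfree : ∀ (c : C) (x : Ω), c • x = x → c = 1)
    (h2 : ∀ x y x' y' : Ω, (∀ c : C, y ≠ c • x) → (∀ c : C, y' ≠ c • x') →
      ∃ g : G, g • x = x' ∧ g • y = y')
    (a b : Ω) (hab : ∀ c : C, b ≠ c • a) :
    Nat.card (MulAction.orbitRel.Quotient (MulAction.stabilizer G a) Ω) = Fintype.card C + 1 := by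
  classical
  let f : Option C → MulAction.orbitRel.Quotient (MulAction.stabilizer G a) Ω := fun o =>
    match o with
    | none => Quotient.mk'' b
    | some c => Quotient.mk'' (c • a)
  have hrel : ∀ x y : Ω, (Quotient.mk'' x : MulAction.orbitRel.Quotient (MulAction.stabilizer G a) Ω)
      = Quotient.mk'' y ↔ ∃ h : MulAction.stabilizer G a, h • y = x := by
    intro x y
    rw [Quotient.eq'']
    exact Iff.rfl
  have hfix : ∀ (h : MulAction.stabilizer G a) (c : C), h • (c • a) = c • a := by
    intro h c
    show (h : G) • (c • a) = c • a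
    rw [smul_comm, h.2]
  have hbij : Function.Bijective f := by
    constructor
    · intro o o' hoo
      match o, o' with
      | none, none => rfl
      | none, some c =>
        exfalso
        obtain ⟨h, hh⟩ := (hrel _ _).1 hoo
        rw [hfix] at hh
        exact hab c hh.symm
      | some c, none =>
        exfalso
        obtain ⟨h, hh⟩ := (hrel _ _).1 hoo.symm
        rw [hfix] at hh
        exact hab c hh.symm
      | some c, some c' =>
        obtain ⟨h, hh⟩ := (hrel _ _).1 hoo
        rw [hfix] at hh
        have : (c⁻¹ * c') • a = a := by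
          rw [mul_smul, hh, inv_smul_smul]
        have h1 := hfree _ _ this
        rw [inv_mul_eq_one] at h1
        rw [h1]
    · intro z
      induction z using Quotient.inductionOn' with
      | h y =>
        by_cases hy : ∃ c : C, y = c • a
        · obtain ⟨c, rfl⟩ := hy
          exact ⟨some c, rfl⟩
        · push Not at hy
          obtain ⟨g, hg1, hg2⟩ := h2 a y a b hy hab
          exact ⟨none, (hrel _ _).2 ⟨⟨g, hg1⟩, hg2⟩⟩
  rw [← Nat.card_congr (Equiv.ofBijective f hbij), Nat.card_eq_fintype_card, Fintype.card_option]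

end Cfsg.Agent.Lib.Helper77.Weil
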