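import Cfsg.Agent.Lib.Helper77.Weil.Trans
import Cfsg.Agent.Lib.Helper77.Weil.Rank
import Cfsg.Agent.Lib.Helper77.Weil.Comm
import Cfsg.Agent.Lib.Helper77.Weil.Fin
import Cfsg.Agent.Lib.Helper96.Commutant

/-!
# Ladder WEIL: the permutation character of `SL_n(F)` on the non-zero vectors
-/

set_option autoImplicit false

namespace Cfsg.Agent.Lib.Helper77.Weil

open Cfsg

theorem main {F : Type*} [Field F] [Fintype F] [DecidableEq F] (n : ℕ) (hn : 3 ≤ n) :
    ∃ χ : Fin (Fintype.card F - 1) → (Matrix.SpecialLinearGroup (Fin n) F → ℂ),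
      (∀ i, Cfsg.IsIrrCharacter (Matrix.SpecialLinearGroup (Fin n) F) (χ i)) ∧ Function.Injective χ ∧
      ∀ g : Matrix.SpecialLinearGroup (Fin n) F,
        (Nat.card {v : Fin n → F // v ≠ 0 ∧ (g : Matrix (Fin n) (Fin n) F).mulVec v = v} : ℂ) = 1 + ∑ i, χ i g := by
  classical
  have : Fintype (Matrix.SpecialLinearGroup (Fin n) F) := Fintype.ofFinite _
  have hne : (Pi.single ⟨0, by omega⟩ 1 : Fin n → F) ≠ 0 := by
    intro h
    have := congrFun h ⟨0, by omega⟩
    simp at this
  let a : NZ n F := ⟨Pi.single ⟨0, by omega⟩ 1, hne⟩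
  obtain ⟨b, hab⟩ := exists_indep hn a
  have : MulAction.IsPretransitive (Matrix.SpecialLinearGroup (Fin n) F) (NZ n F) :=
    ⟨fun x y => trans1 hn x y⟩
  have hr := rank_of_scalars (G := Matrix.SpecialLinearGroup (Fin n) F) (C := Fˣ) sc_free
    (trans2 hn) a b hab
  have hmf := Helper96.multFree_of_commute
    (Representation.ofMulAction ℂ (Matrix.SpecialLinearGroup (Fin n) F) (NZ n F))
    (fun S T hS hT => comm_of_scalars (C := Fˣ) sc_free (trans1 hn) (trans2 hn) a b hab S T hS hT)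
  have hch : (Representation.ofMulAction ℂ (Matrix.SpecialLinearGroup (Fin n) F) (NZ n F)).character
      = fun g => (Nat.card (MulAction.fixedBy (NZ n F) g) : ℂ) := by
    funext g
    exact Helper4.char_ofMulAction g
  rw [hch] at hmf
  rw [Fintype.card_units] at hr
  obtain ⟨χ, h1, h2, h3⟩ := decomp_of_multFree a _ hr hmf
  refine ⟨χ, h1, h2, fun g => ?_⟩
  rw [← card_fixedBy, h3]

end Cfsg.Agent.Lib.Helper77.Weil
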